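import Mathlib
set_option linter.all false

-- part: H196/GA
section
/-!
# Group algebra certificates for permutation groups

Permutations of `Fin n` (`n ≤ 10`) are coded as natural numbers (hexadecimal digit `i` is the image of `i`).
A formal sum is a list of pairs (coefficient, code); it acts on a vector `v` of a module of characteristic `p` for
`Equiv.Perm (Fin n)` (`ev`).  `Cfsg.Agent.H196.GA.sound` checks by computation that a formal sum is, modulo `p`, a
combination of translates of given relations.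
-/

set_option autoImplicit false

namespace Cfsg.Agent.H196.GA

/-! ### Codes of permutations -/

/-- digit `i` of the code `c` -/
def dig (c i : ℕ) : ℕ := Nat.mod (Nat.div c (Nat.pow 16 i)) 16

theorem dig_eq (c i : ℕ) : dig c i = c / 16 ^ i % 16 := rfl

theorem dig_lt (c i : ℕ) : dig c i < 16 := Nat.mod_lt _ (by norm_num)

/-- composition of codes: first `d`, then `c` -/
def comp (c d : ℕ) : ℕ :=
  Nat.add (dig c (dig d 0)) (Nat.mul 16 (Nat.add (dig c (dig d 1)) (Nat.mul 16 (Nat.add (dig c (dig d 2)) (Nat.mul 16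
  (Nat.add (dig c (dig d 3)) (Nat.mul 16 (Nat.add (dig c (dig d 4)) (Nat.mul 16 (Nat.add (dig c (dig d 5)) (Nat.mul 16
  (Nat.add (dig c (dig d 6)) (Nat.mul 16 (Nat.add (dig c (dig d 7)) (Nat.mul 16 (Nat.add (dig c (dig d 8)) (Nat.mul 16
  (dig c (dig d 9)))))))))))))))))))

/-- Horner evaluation of a list of digits -/
def hor : List ℕ → ℕ
  | [] => 0
  | a :: l => a + 16 * hor l

theorem dig_hor : ∀ (l : List ℕ), (∀ a ∈ l, a < 16) → ∀ i, dig (hor l) i = l.getD i 0
  | [], _, i => by simp [dig_eq, hor]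
  | a :: l, h, 0 => by
    have := h a (by simp)
    simp only [dig_eq, hor, pow_zero, Nat.div_one, List.getD_cons_zero]
    omega
  | a :: l, h, i + 1 => by
    have ha := h a (by simp)
    have ih := dig_hor l (fun b hb => h b (by simp [hb])) i
    rw [List.getD_cons_succ, ← ih, dig_eq, dig_eq, hor, pow_succ', ← Nat.div_div_eq_div_mul]
    congr 2
    omega

theorem comp_eq (c d : ℕ) : comp c d = hor ((List.range 10).map fun i => dig c (dig d i)) := by
  simp [comp, hor, List.range_succ]

theorem dig_comp (c d : ℕ) {i : ℕ} (hi : i < 10) : dig (comp c d) i = dig c (dig d i) := by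
  rw [comp_eq, dig_hor _ (by simp only [List.mem_map]; rintro a ⟨j, -, rfl⟩; exact dig_lt _ _)]
  rw [List.getD_eq_getElem _ _ (by simpa using hi)]
  simp

/-- bit mask of the first `k` digits -/
def mask (c : ℕ) : ℕ → ℕ
  | 0 => 0
  | k + 1 => Nat.lor (mask c k) (Nat.pow 2 (dig c k))

theorem testBit_mask (c j : ℕ) : ∀ k, (mask c k).testBit j = true ↔ ∃ i < k, dig c i = j
  | 0 => by simp [mask]
  | k + 1 => by
    have h : mask c (k + 1) = mask c k ||| 2 ^ dig c k := rfl
    rw [h, Nat.testBit_lor, Bool.or_eq_true, testBit_mask c j k, Nat.testBit_two_pow]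
    simp only [decide_eq_true_eq]
    constructor
    · rintro (⟨i, hi, h⟩ | h)
      · exact ⟨i, by omega, h⟩
      · exact ⟨k, by omega, h⟩
    · rintro ⟨i, hi, h⟩
      rcases Nat.lt_succ_iff_lt_or_eq.1 hi with h1 | h1
      · exact Or.inl ⟨i, h1, h⟩
      · exact Or.inr (h1 ▸ h)

/-- is `c` the code of a permutation of `Fin n`? -/
def okc (n c : ℕ) : Bool := Nat.beq (mask c n) (Nat.pow 2 n - 1)

theorem okc_iff (n c : ℕ) : okc n c = true ↔ (∀ i < n, dig c i < n) ∧ ∀ j < n, ∃ i < n, dig c i = j := by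
  have h1 : okc n c = true ↔ mask c n = 2 ^ n - 1 := by
    unfold okc
    rw [Nat.beq_eq]
    rfl
  rw [h1]
  constructor
  · intro h
    constructor
    · intro i hi
      have h2 : (mask c n).testBit (dig c i) = true := (testBit_mask _ _ _).2 ⟨i, hi, rfl⟩
      rw [h, Nat.testBit_two_pow_sub_one] at h2
      simpa using h2
    · intro j hj
      rw [← testBit_mask, h, Nat.testBit_two_pow_sub_one]
      simpa using hj
  · rintro ⟨h2, h3⟩
    apply Nat.eq_of_testBit_eq
    intro j
    rw [Nat.testBit_two_pow_sub_one, Bool.eq_iff_iff, testBit_mask]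
    simp only [decide_eq_true_eq]
    exact ⟨fun ⟨i, hi, h⟩ => h ▸ h2 i hi, h3 j⟩

theorem bij_of_ok {n c : ℕ} (h : okc n c = true) :
    Function.Bijective (fun i : Fin n => (⟨dig c i, ((okc_iff n c).1 h).1 i i.2⟩ : Fin n)) := by
  apply Function.Surjective.bijective_of_finite
  intro j
  obtain ⟨i, hi, h⟩ := ((okc_iff n c).1 h).2 j j.2
  exact ⟨⟨i, hi⟩, Fin.ext h⟩

/-- the permutation with code `c` -/
noncomputable def toPerm (n c : ℕ) : Equiv.Perm (Fin n) :=
  if h : okc n c = true then Equiv.ofBijective _ (bij_of_ok h) else 1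

theorem toPerm_apply {n c : ℕ} (h : okc n c = true) (i : Fin n) : ((toPerm n c i : Fin n) : ℕ) = dig c i := by
  rw [toPerm, dif_pos h]
  rfl

theorem comp_ok {n c d : ℕ} (hn : n ≤ 10) (hc : okc n c = true) (hd : okc n d = true) :
    okc n (comp c d) = true ∧ toPerm n (comp c d) = toPerm n c * toPerm n d := by
  have h1 := (okc_iff n c).1 hc
  have h2 := (okc_iff n d).1 hd
  have h3 : okc n (comp c d) = true := by
    rw [okc_iff]
    constructor
    · intro i hi
      rw [dig_comp c d (by omega)]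
      exact h1.1 _ (h2.1 i hi)
    · intro j hj
      obtain ⟨k, hk, h⟩ := h1.2 j hj
      obtain ⟨i, hi, h'⟩ := h2.2 k hk
      exact ⟨i, hi, by rw [dig_comp c d (by omega), h', h]⟩
  refine ⟨h3, ?_⟩
  ext i
  rw [toPerm_apply h3, Equiv.Perm.mul_apply, toPerm_apply hc, toPerm_apply hd, dig_comp c d (by omega)]

/-- the code of the identity -/
def idc : ℕ := 0x9876543210

theorem okc_idc {n : ℕ} (hn : n ≤ 10) : okc n idc = true := by
  interval_cases n <;> decide

theorem toPerm_idc {n : ℕ} (hn : n ≤ 10) : toPerm n idc = 1 := by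
  ext i
  rw [toPerm_apply (okc_idc hn), Equiv.Perm.one_apply]
  have : ∀ i < 10, dig idc i = i := by decide
  exact this i (by omega)

/-! ### Tries -/

/-- binary tries with buckets: finite maps from keys to coefficients -/
inductive Tr
  | nil : Tr
  | leaf : ℕ → ℕ → Tr → Tr
  | node : Tr → Tr → Tr

/-- forced evaluation of a trie -/
noncomputable def frT (t : Tr) (f : Tr → Tr) : Tr :=
  Tr.rec (motive := fun _ => Tr) (f .nil) (fun a b c _ => f (.leaf a b c)) (fun a b _ _ => f (.node a b)) t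

theorem frT_eq (t : Tr) (f : Tr → Tr) : frT t f = f t := by cases t <;> rfl

/-- forced evaluation of a number -/
noncomputable def frN {α : Type} (k : ℕ) (f : ℕ → α) : α :=
  Nat.rec (motive := fun _ => α) (f 0) (fun n _ => f (Nat.succ n)) k

theorem frN_eq {α : Type} (k : ℕ) (f : ℕ → α) : frN k f = f k := by cases k <;> rfl

/-- insertion in a bucket (a list of leaves), in continuation passing style -/
noncomputable def Tr.insB (t : Tr) (k a : ℕ) : (Tr → Tr) → Tr :=
  Tr.rec (motive := fun _ => (Tr → Tr) → Tr) (fun f => f (.leaf k a .nil))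
    (fun k' a' r ih f => Bool.rec (motive := fun _ => Tr) (ih fun r' => f (.leaf k' a' r'))
      (frN (Nat.add a a') fun s => f (.leaf k' s r)) (Nat.beq k k'))
    (fun l r _ _ f => f (.leaf k a (.node l r))) t

/-- one level of insertion: branch according to `m ≤ b` -/
noncomputable def Tr.insS (m : ℕ) (rest : Tr → ℕ → ℕ → ℕ → (Tr → Tr) → Tr) (t : Tr) (b k a : ℕ)
    (f : Tr → Tr) : Tr :=
  Tr.rec (motive := fun _ => Tr)
    (Bool.rec (motive := fun _ => Tr) (rest .nil b k a fun l => f (.node l .nil))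
      (rest .nil (Nat.sub b m) k a fun r => f (.node .nil r)) (Nat.ble m b))
    (fun _ _ _ _ => insB t k a f)
    (fun l r _ _ => Bool.rec (motive := fun _ => Tr) (rest l b k a fun l' => f (.node l' r))
      (rest r (Nat.sub b m) k a fun r' => f (.node l r')) (Nat.ble m b)) t

/-- insertion -/
noncomputable def Tr.ins0 (t : Tr) (_ k a : ℕ) (f : Tr → Tr) : Tr := insB t k a f
/-- insertion -/
noncomputable def Tr.ins1 := insS 1 ins0
/-- insertion -/
noncomputable def Tr.ins2 := insS 2 ins1
/-- insertion -/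
noncomputable def Tr.ins3 := insS 4 ins2
/-- insertion -/
noncomputable def Tr.ins4 := insS 8 ins3
/-- insertion -/
noncomputable def Tr.ins5 := insS 16 ins4
/-- insertion -/
noncomputable def Tr.ins6 := insS 32 ins5
/-- insertion -/
noncomputable def Tr.ins7 := insS 64 ins6
/-- insertion -/
noncomputable def Tr.ins8 := insS 128 ins7
/-- insertion -/
noncomputable def Tr.ins9 := insS 256 ins8
/-- insertion -/
noncomputable def Tr.ins10 := insS 512 ins9
/-- insertion -/
noncomputable def Tr.ins := insS 1024 ins10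

/-- are all coefficients divisible by `p`? -/
noncomputable def Tr.zeroB (p : ℕ) (t : Tr) : Bool :=
  Tr.rec (motive := fun _ => Bool) true
    (fun _ a _ ih => Bool.rec (motive := fun _ => Bool) false ih (Nat.beq (Nat.mod a p) 0))
    (fun _ _ ih ih' => Bool.rec (motive := fun _ => Bool) false ih' ih) t

/-- formal sums -/
abbrev FS := List (ℕ × ℕ)

/-- add `a` times the translate by `h` of a formal sum -/
noncomputable def addFS (kf : ℕ → ℕ → ℕ) (h a : ℕ) (l : FS) : Tr → Tr :=
  List.rec (motive := fun _ => Tr → Tr) (fun t => t)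
    (fun x _ ih t => frN (kf h x.2) fun k => t.ins (Nat.mod k 2039) k (Nat.mul a x.1) ih) l

/-- add a list of terms (coefficient, translation, number of the relation) -/
noncomputable def addTerms (kf : ℕ → ℕ → ℕ) (rels : List FS) (l : List (ℕ × ℕ × ℕ)) : Tr → Tr :=
  List.rec (motive := fun _ => Tr → Tr) (fun t => t)
    (fun x _ ih t => frT (addFS kf x.2.1 x.1 (rels.getD x.2.2 []) t) ih) l

/-- all codes are codes of permutations -/
def okFS (n : ℕ) (l : FS) : Bool := l.all fun x => okc n x.2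

/-- The check: `target + ∑ terms = 0` modulo `p`. -/
noncomputable def check (n p : ℕ) (kf : ℕ → ℕ → ℕ) (rels : List FS) (terms : List (ℕ × ℕ × ℕ)) (target : FS) :
    Bool :=
  and (rels.all (okFS n)) (and (terms.all fun x => okc n x.2.1) (and (okFS n target)
    ((addTerms kf rels terms (addFS kf idc 1 target .nil)).zeroB p)))

section val

variable {n p : ℕ} {V : Type*} [AddCommGroup V]

/-- value of a trie -/
def Tr.val (F : ℕ → V) : Tr → V
  | .nil => 0
  | .leaf k a r => a • F k + r.val F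
  | .node l r => l.val F + r.val F

theorem Tr.insB_val (F : ℕ → V) (k a : ℕ) : ∀ t : Tr,
    ∃ t' : Tr, (∀ f, t.insB k a f = f t') ∧ t'.val F = t.val F + a • F k
  | .nil => ⟨.leaf k a .nil, fun _ => rfl, by simp [Tr.val]⟩
  | .leaf k' a' r => by
    obtain ⟨r', h1, h2⟩ := Tr.insB_val F k a r
    rcases h : Nat.beq k k' with _ | _
    · refine ⟨.leaf k' a' r', fun f => ?_, by rw [Tr.val, Tr.val, h2, add_assoc]⟩
      have : (Tr.leaf k' a' r).insB k a f = Bool.rec (motive := fun _ => Tr) (r.insB k a fun r' => f (.leaf k' a' r'))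
        (frN (Nat.add a a') fun s => f (.leaf k' s r)) (Nat.beq k k') := rfl
      rw [this, h]
      exact h1 _
    · refine ⟨.leaf k' (a + a') r, fun f => ?_, ?_⟩
      · have : (Tr.leaf k' a' r).insB k a f = Bool.rec (motive := fun _ => Tr)
          (r.insB k a fun r' => f (.leaf k' a' r'))
          (frN (Nat.add a a') fun s => f (.leaf k' s r)) (Nat.beq k k') := rfl
        rw [this, h]
        exact frN_eq _ _
      · have h' : k = k' := Nat.eq_of_beq_eq_true h
        subst h'
        rw [Tr.val, Tr.val, add_smul]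
        abel
  | .node l r => ⟨.leaf k a (.node l r), fun _ => rfl, by simp only [Tr.val]; abel⟩

/-- correctness of an insertion function -/
def InsOk (F : ℕ → V) (ins : Tr → ℕ → ℕ → ℕ → (Tr → Tr) → Tr) : Prop :=
  ∀ (t : Tr) (b k a : ℕ), ∃ t' : Tr, (∀ f, ins t b k a f = f t') ∧ t'.val F = t.val F + a • F k

theorem insS_ok (F : ℕ → V) (m : ℕ) {rest : Tr → ℕ → ℕ → ℕ → (Tr → Tr) → Tr} (hr : InsOk F rest) :
    InsOk F (Tr.insS m rest) := by
  intro t b k a
  cases t with
  | nil =>
    have h0 : ∀ f, Tr.insS m rest .nil b k a f = Bool.rec (motive := fun _ => Tr)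
      (rest .nil b k a fun l => f (.node l .nil))
      (rest .nil (Nat.sub b m) k a fun r => f (.node .nil r)) (Nat.ble m b) := fun _ => rfl
    rcases h : Nat.ble m b with _ | _
    · obtain ⟨t', h1, h2⟩ := hr .nil b k a
      exact ⟨.node t' .nil, fun f => by rw [h0, h]; exact h1 _, by simp only [Tr.val, h2]; abel⟩
    · obtain ⟨t', h1, h2⟩ := hr .nil (Nat.sub b m) k a
      exact ⟨.node .nil t', fun f => by rw [h0, h]; exact h1 _, by simp only [Tr.val, h2]; abel⟩
  | leaf k' a' r => exact Tr.insB_val F k a (.leaf k' a' r)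
  | node l r =>
    have h0 : ∀ f, Tr.insS m rest (.node l r) b k a f = Bool.rec (motive := fun _ => Tr)
      (rest l b k a fun l' => f (.node l' r))
      (rest r (Nat.sub b m) k a fun r' => f (.node l r')) (Nat.ble m b) := fun _ => rfl
    rcases h : Nat.ble m b with _ | _
    · obtain ⟨t', h1, h2⟩ := hr l b k a
      exact ⟨.node t' r, fun f => by rw [h0, h]; exact h1 _, by simp only [Tr.val, h2]; abel⟩
    · obtain ⟨t', h1, h2⟩ := hr r (Nat.sub b m) k a
      exact ⟨.node l t', fun f => by rw [h0, h]; exact h1 _, by simp only [Tr.val, h2]; abel⟩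

theorem ins_ok (F : ℕ → V) : InsOk F Tr.ins := by
  have h0 : InsOk F Tr.ins0 := fun t _ k a => Tr.insB_val F k a t
  exact insS_ok F _ (insS_ok F _ (insS_ok F _ (insS_ok F _ (insS_ok F _ (insS_ok F _ (insS_ok F _ (insS_ok F _
    (insS_ok F _ (insS_ok F _ (insS_ok F _ h0))))))))))

theorem Tr.zeroB_val (F : ℕ → V) (hp : ∀ v : V, p • v = 0) : ∀ t : Tr, t.zeroB p = true → t.val F = 0
  | .nil, _ => rfl
  | .leaf k a r, h => by
    have h0 : (Tr.leaf k a r).zeroB p = Bool.rec (motive := fun _ => Bool) false (r.zeroB p)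
      (Nat.beq (Nat.mod a p) 0) := rfl
    rw [h0] at h
    rcases h1 : Nat.beq (Nat.mod a p) 0 with _ | _
    · rw [h1] at h
      exact absurd h (by simp)
    · rw [h1] at h
      have h2 : a % p = 0 := Nat.eq_of_beq_eq_true h1
      obtain ⟨m, rfl⟩ := Nat.dvd_of_mod_eq_zero h2
      rw [Tr.val, Tr.zeroB_val F hp r h, mul_comm, mul_smul, hp, smul_zero, add_zero]
  | .node l r, h => by
    have h0 : (Tr.node l r).zeroB p = Bool.rec (motive := fun _ => Bool) false (r.zeroB p) (l.zeroB p) := rfl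
    rw [h0] at h
    rcases h1 : l.zeroB p with _ | _
    · rw [h1] at h
      exact absurd h (by simp)
    · rw [h1] at h
      rw [Tr.val, Tr.zeroB_val F hp l h1, Tr.zeroB_val F hp r h, add_zero]

end val

section action

variable {n p : ℕ} {V : Type*} [AddCommGroup V] [DistribMulAction (Equiv.Perm (Fin n)) V]

variable (n) in
/-- a formal sum applied to a vector -/
noncomputable def ev (v : V) (l : FS) : V := (l.map fun x => x.1 • (toPerm n x.2 • v)).sum

@[simp] theorem ev_nil (v : V) : ev n v [] = 0 := rfl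

@[simp] theorem ev_cons (v : V) (x : ℕ × ℕ) (l : FS) : ev n v (x :: l) = x.1 • (toPerm n x.2 • v) + ev n v l := by
  simp [ev]

variable (n) in
/-- `kf h x` determines the translate of `v` by the product of `h` and `x` -/
def KeyOK (v : V) (kf : ℕ → ℕ → ℕ) : Prop :=
  ∃ F : ℕ → V, ∀ h x, okc n h = true → okc n x = true → F (kf h x) = toPerm n h • (toPerm n x • v)

theorem addFS_val {v : V} {kf : ℕ → ℕ → ℕ} {F : ℕ → V}
    (hF : ∀ h x, okc n h = true → okc n x = true → F (kf h x) = toPerm n h • (toPerm n x • v))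
    {h : ℕ} (hh : okc n h = true) (a : ℕ) :
    ∀ (l : FS) (_ : okFS n l = true) (t : Tr),
      (addFS kf h a l t).val F = t.val F + a • (toPerm n h • ev n v l)
  | [], _, t => by
    show t.val F = _
    simp
  | x :: l, hl, t => by
    rw [okFS, List.all_cons, Bool.and_eq_true] at hl
    have h0 : addFS kf h a (x :: l) t = frN (kf h x.2) fun k => t.ins (Nat.mod k 2039) k (Nat.mul a x.1)
      (addFS kf h a l) := rfl
    obtain ⟨t', h1, h2⟩ := ins_ok F t (Nat.mod (kf h x.2) 2039) (kf h x.2) (Nat.mul a x.1)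
    rw [h0, frN_eq, h1, addFS_val hF hh a l hl.2, h2, hF h x.2 hh hl.1, ev_cons, smul_add, smul_add,
      smul_comm (toPerm n h) x.1, ← mul_smul a x.1, show Nat.mul a x.1 = a * x.1 from rfl]
    abel

theorem addTerms_val {v : V} {kf : ℕ → ℕ → ℕ} {F : ℕ → V}
    (hF : ∀ h x, okc n h = true → okc n x = true → F (kf h x) = toPerm n h • (toPerm n x • v)) {rels : List FS}
    (hr : rels.all (okFS n) = true) (hz : ∀ r ∈ rels, ev n v r = 0) :
    ∀ (l : List (ℕ × ℕ × ℕ)) (_ : (l.all fun x => okc n x.2.1) = true) (t : Tr),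
      (addTerms kf rels l t).val F = t.val F
  | [], _, t => rfl
  | x :: l, hl, t => by
    rw [List.all_cons, Bool.and_eq_true] at hl
    have h1 : okFS n (rels.getD x.2.2 []) = true ∧ ev n v (rels.getD x.2.2 []) = 0 := by
      rcases lt_or_ge x.2.2 rels.length with h | h
      · rw [List.getD_eq_getElem _ _ h]
        exact ⟨List.all_eq_true.1 hr _ (List.getElem_mem h), hz _ (List.getElem_mem h)⟩
      · rw [List.getD_eq_default _ _ h]
        exact ⟨rfl, rfl⟩
    have h0 : addTerms kf rels (x :: l) t = frT (addFS kf x.2.1 x.1 (rels.getD x.2.2 []) t) (addTerms kf rels l) :=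
      rfl
    rw [h0, frT_eq, addTerms_val hF hr hz l hl.2, addFS_val hF hl.1 x.1 _ h1.1, h1.2]
    simp

/-- **Soundness of the certificates.** -/
theorem sound (hn : n ≤ 10) (hp : ∀ v : V, p • v = 0) {v : V} {kf : ℕ → ℕ → ℕ} (hk : KeyOK n v kf)
    {rels : List FS} (hz : ∀ r ∈ rels, ev n v r = 0) {terms : List (ℕ × ℕ × ℕ)} {target : FS}
    (h : check n p kf rels terms target = true) : ev n v target = 0 := by
  obtain ⟨F, hF⟩ := hk
  rw [check, Bool.and_eq_true, Bool.and_eq_true, Bool.and_eq_true] at h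
  obtain ⟨h1, h2, h3, h4⟩ := h
  have h5 := Tr.zeroB_val F hp _ h4
  rw [addTerms_val hF h1 hz terms h2, addFS_val hF (okc_idc hn) 1 target h3] at h5
  simpa [Tr.val, toPerm_idc hn] using h5

/-- canonical forms which do not change the translates of `v` -/
def Canon (n : ℕ) {V : Type*} [AddCommGroup V] [DistribMulAction (Equiv.Perm (Fin n)) V] (v : V) (cn : ℕ → ℕ) :
    Prop :=
  ∀ c, okc n c = true → okc n (cn c) = true ∧ toPerm n (cn c) • v = toPerm n c • v

theorem Canon.keyOK (hn : n ≤ 10) {v : V} {cn : ℕ → ℕ} (h : Canon n v cn) :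
    KeyOK n v fun h x => cn (comp h x) :=
  ⟨fun c => toPerm n c • v, fun h' x hh hx => by
    show toPerm n (cn (comp h' x)) • v = _
    rw [(h _ (comp_ok hn hh hx).1).2, (comp_ok hn hh hx).2, mul_smul]⟩

/-- no identification of translates -/
theorem keyOK_comp (hn : n ≤ 10) (v : V) : KeyOK n v comp :=
  ⟨fun c => toPerm n c • v, fun h' x hh hx => by
    show toPerm n (comp h' x) • v = _
    rw [(comp_ok hn hh hx).2, mul_smul]⟩

/-- minimum of two numbers -/
def mn (a b : ℕ) : ℕ := bif Nat.ble a b then a else b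

/-- canonical form by conditional multiplications: if `min(dig i, dig j) > min (dig k, dig l)` multiply by `t` -/
noncomputable def cnS : List (ℕ × ℕ × ℕ × ℕ × ℕ) → ℕ → ℕ
  | [], c => c
  | (i, j, k, l, t) :: s, c =>
    frN (bif Nat.ble (mn (dig c i) (dig c j)) (mn (dig c k) (dig c l)) then c else comp c t) (cnS s)

theorem canon_cnS (hn : n ≤ 10) {v : V} : ∀ (s : List (ℕ × ℕ × ℕ × ℕ × ℕ))
    (_ : ∀ x ∈ s, okc n x.2.2.2.2 = true ∧ toPerm n x.2.2.2.2 • v = v), Canon n v (cnS s)
  | [], _ => fun _ h => ⟨h, rfl⟩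
  | (i, j, k, l, t) :: s, hs => fun c hc => by
    have hs' := canon_cnS hn s fun x hx => hs x (by simp [hx])
    have ht := hs (i, j, k, l, t) (by simp)
    rw [cnS, frN_eq]
    rcases Nat.ble (mn (dig c i) (dig c j)) (mn (dig c k) (dig c l)) with _ | _
    · obtain ⟨h1, h2⟩ := comp_ok hn hc ht.1
      simp only [cond_false]
      refine ⟨(hs' _ h1).1, ?_⟩
      rw [(hs' _ h1).2, h2, mul_smul, ht.2]
    · exact hs' c hc

/-! ### Operations on formal sums -/

/-- left translate -/
def lm (h : ℕ) (l : FS) : FS := l.map fun x => (x.1, comp h x.2)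

/-- right translate -/
def rm (l : FS) (h : ℕ) : FS := l.map fun x => (x.1, comp x.2 h)

/-- scalar multiple -/
def sc (a : ℕ) (l : FS) : FS := l.map fun x => (a * x.1, x.2)

theorem ev_append (v : V) (l m : FS) : ev n v (l ++ m) = ev n v l + ev n v m := by
  simp [ev]

theorem ev_sc (v : V) (a : ℕ) : ∀ l : FS, ev n v (sc a l) = a • ev n v l
  | [] => by simp [sc]
  | x :: l => by
    have := ev_sc v a l
    simp only [sc] at this
    simp only [sc, List.map_cons, ev_cons, this, smul_add, mul_smul]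

theorem ev_lm (hn : n ≤ 10) (v : V) {h : ℕ} (hh : okc n h = true) : ∀ (l : FS) (_ : okFS n l = true),
    ev n v (lm h l) = toPerm n h • ev n v l
  | [], _ => by simp [lm]
  | x :: l, hl => by
    rw [okFS, List.all_cons, Bool.and_eq_true] at hl
    have := ev_lm hn v hh l hl.2
    simp only [lm] at this
    simp only [lm, List.map_cons, ev_cons, this, smul_add, (comp_ok hn hh hl.1).2, mul_smul]
    rw [smul_comm x.1 (toPerm n h)]

theorem ev_rm (hn : n ≤ 10) (v : V) {h : ℕ} (hh : okc n h = true) : ∀ (l : FS) (_ : okFS n l = true),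
    ev n v (rm l h) = ev n (toPerm n h • v) l
  | [], _ => by simp [rm]
  | x :: l, hl => by
    rw [okFS, List.all_cons, Bool.and_eq_true] at hl
    have := ev_rm hn v hh l hl.2
    simp only [rm] at this
    simp only [rm, List.map_cons, ev_cons, this, (comp_ok hn hl.1 hh).2, mul_smul]

/-- If `(h - 1) l` evaluates to `0`, then `h` fixes the value of `l`. -/
theorem smul_ev_of (hn : n ≤ 10) (hp : ∀ v : V, p • v = 0) (v : V) {h : ℕ} (hh : okc n h = true) {l : FS}
    (hl : okFS n l = true) (hp0 : 0 < p) (h0 : ev n v (lm h l ++ sc (p - 1) l) = 0) :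
    toPerm n h • ev n v l = ev n v l := by
  rw [ev_append, ev_sc, ev_lm hn v hh l hl] at h0
  have h1 : (p - 1) • ev n v l + ev n v l = 0 := by
    rw [← succ_nsmul, Nat.sub_add_cancel hp0, hp]
  rw [eq_neg_of_add_eq_zero_left h0, eq_neg_of_add_eq_zero_left h1, neg_neg]

end action

end Cfsg.Agent.H196.GA
end

-- part: H196/NF
section
/-!
# Modules without vectors fixed by a nonsolvable subgroup

`Cfsg.Agent.H196.GA.NF n V`: no nonzero vector of the `Equiv.Perm (Fin n)`-module `V` is fixed by a nonsolvable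
two-generated subgroup.  `NF.kill` is the way to use this property together with certificates.
-/

set_option autoImplicit false

open scoped commutatorElement

namespace Cfsg.Agent.H196.GA

/-- A finite computation with words: `w = [r₁, …]` is the product of `a`'s and `b`'s. -/
def wd (a b : ℕ) : List Bool → ℕ
  | [] => idc
  | x :: w => comp (bif x then a else b) (wd a b w)

theorem wd_ok {n a b : ℕ} (hn : n ≤ 10) (ha : okc n a = true) (hb : okc n b = true) : ∀ w : List Bool,
    okc n (wd a b w) = true ∧ toPerm n (wd a b w) ∈ Subgroup.closure {toPerm n a, toPerm n b}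
  | [] => by
    simp only [wd]
    exact ⟨okc_idc hn, by rw [toPerm_idc hn]; exact one_mem _⟩
  | x :: w => by
    obtain ⟨h1, h2⟩ := wd_ok hn ha hb w
    cases x
    · simp only [wd, cond_false]
      obtain ⟨h3, h4⟩ := comp_ok hn hb h1
      exact ⟨h3, by rw [h4]; exact mul_mem (Subgroup.subset_closure (by simp)) h2⟩
    · simp only [wd, cond_true]
      obtain ⟨h3, h4⟩ := comp_ok hn ha h1
      exact ⟨h3, by rw [h4]; exact mul_mem (Subgroup.subset_closure (by simp)) h2⟩

/-- `a = [w₁, w₂]` and `b = [w₃, w₄]` for words `w₁, …, w₄` in `a` and `b` (and `a` moves `i`) -/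
def nsB (n a b i : ℕ) (w₁ w₂ w₃ w₄ : List Bool) : Bool :=
  and (and (okc n a) (okc n b)) (and (and (Nat.ble (Nat.succ i) n) (not (Nat.beq (dig a i) i)))
    (and (Nat.beq (comp (wd a b w₁) (wd a b w₂)) (comp a (comp (wd a b w₂) (wd a b w₁))))
      (Nat.beq (comp (wd a b w₃) (wd a b w₄)) (comp b (comp (wd a b w₄) (wd a b w₃))))))

theorem not_solvable {n a b i : ℕ} {w₁ w₂ w₃ w₄ : List Bool} (hn : n ≤ 10)
    (h : nsB n a b i w₁ w₂ w₃ w₄ = true) : ¬ Group.IsSolvable (Subgroup.closure {toPerm n a, toPerm n b}) := by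
  simp only [nsB, Bool.and_eq_true, Bool.not_eq_true'] at h
  obtain ⟨⟨ha, hb⟩, ⟨hi, hai⟩, h1, h2⟩ := h
  have hi' : i < n := Nat.le_of_ble_eq_true hi
  have h1' := Nat.eq_of_beq_eq_true h1
  have h2' := Nat.eq_of_beq_eq_true h2
  have key : ∀ (c : ℕ) (u v : List Bool), okc n c = true →
      comp (wd a b u) (wd a b v) = comp c (comp (wd a b v) (wd a b u)) →
      toPerm n c = ⁅toPerm n (wd a b u), toPerm n (wd a b v)⁆ := by
    intro c u v hc huv
    obtain ⟨hu, -⟩ := wd_ok hn ha hb u
    obtain ⟨hv, -⟩ := wd_ok hn ha hb v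
    have h3 := (comp_ok hn hu hv).2
    have h4 := (comp_ok hn hc (comp_ok hn hv hu).1).2
    rw [huv, h4, (comp_ok hn hv hu).2] at h3
    rw [commutatorElement_def, ← h3]
    group
  set H := Subgroup.closure {toPerm n a, toPerm n b} with hH
  intro hs
  have hne : Nontrivial H := by
    refine ⟨⟨⟨toPerm n a, Subgroup.subset_closure (by simp)⟩, 1, fun h => ?_⟩⟩
    have h5 : toPerm n a = 1 := congrArg Subtype.val h
    have h6 := toPerm_apply ha ⟨i, hi'⟩
    rw [h5, Equiv.Perm.one_apply] at h6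
    simp only at h6
    rw [← h6] at hai
    simp at hai
  have hlt := Group.IsSolvable.commutator_lt_top_of_nontrivial H
  apply hlt.ne
  rw [commutator_eq_closure, eq_top_iff]
  have hgen : ∀ (c : ℕ) (u v : List Bool), toPerm n c = ⁅toPerm n (wd a b u), toPerm n (wd a b v)⁆ →
      ∃ g : H, g ∈ commutator H ∧ (g : Equiv.Perm (Fin n)) = toPerm n c := by
    intro c u v huv
    refine ⟨⁅(⟨_, (wd_ok hn ha hb u).2⟩ : H), (⟨_, (wd_ok hn ha hb v).2⟩ : H)⁆, ?_, ?_⟩
    · exact Subgroup.commutator_mem_commutator (Subgroup.mem_top _) (Subgroup.mem_top _)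
    · rw [huv]
      simp [commutatorElement_def]
  rintro ⟨x, hx⟩ -
  rw [← commutator_eq_closure]
  have hx' := hx
  rw [hH] at hx'
  have : ∀ y (hy : y ∈ H), (⟨y, hy⟩ : H) ∈ commutator H := by
    intro y hy
    have hy' := hy
    rw [hH] at hy'
    induction hy' using Subgroup.closure_induction with
    | mem z hz =>
      rcases hz with rfl | rfl
      · obtain ⟨g, hg, hg'⟩ := hgen a w₁ w₂ (key a w₁ w₂ ha h1')
        exact (show g = ⟨_, hy⟩ from Subtype.ext hg') ▸ hg
      · obtain ⟨g, hg, hg'⟩ := hgen b w₃ w₄ (key b w₃ w₄ hb h2')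
        exact (show g = ⟨_, hy⟩ from Subtype.ext hg') ▸ hg
    | one => exact one_mem _
    | mul z z' hz hz' ih ih' =>
      exact mul_mem (ih (hH ▸ hz)) (ih' (hH ▸ hz'))
    | inv z hz ih => exact inv_mem (ih (hH ▸ hz))
  exact this x hx

section

variable {n p : ℕ} {V : Type*} [AddCommGroup V] [DistribMulAction (Equiv.Perm (Fin n)) V]

/-- no nonzero vector is fixed by a nonsolvable (two-generated) subgroup -/
def NF (n : ℕ) (V : Type*) [AddCommGroup V] [DistribMulAction (Equiv.Perm (Fin n)) V] : Prop :=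
  ∀ (a b : Equiv.Perm (Fin n)), ¬ Group.IsSolvable (Subgroup.closure {a, b}) → ∀ v : V, a • v = v → b • v = v → v = 0

/-- fixed by the permutation with code `a` -/
def Fx (n : ℕ) {V : Type*} [AddCommGroup V] [DistribMulAction (Equiv.Perm (Fin n)) V] (a : ℕ) (v : V) : Prop :=
  toPerm n a • v = v

/-- negated by the permutation with code `a` -/
def An (n : ℕ) {V : Type*} [AddCommGroup V] [DistribMulAction (Equiv.Perm (Fin n)) V] (a : ℕ) (v : V) : Prop :=
  toPerm n a • v = -v

/-- the relation `a v = v` -/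
def rf (p a : ℕ) : FS := [(1, a), (p - 1, idc)]

/-- the relation `a v = - v` -/
def ra (a : ℕ) : FS := [(1, a), (1, idc)]

theorem pred_smul (hp : ∀ v : V, p • v = 0) (hp0 : 0 < p) (v : V) : (p - 1) • v = -v := by
  have h1 : (p - 1) • v + v = 0 := by rw [← succ_nsmul, Nat.sub_add_cancel hp0, hp]
  exact eq_neg_of_add_eq_zero_left h1

theorem ev_rf (hn : n ≤ 10) (hp : ∀ v : V, p • v = 0) (hp0 : 0 < p) {a : ℕ} {v : V} :
    ev n v (rf p a) = 0 ↔ Fx n a v := by
  simp only [rf, ev_cons, ev_nil, toPerm_idc hn, one_smul, add_zero, pred_smul hp hp0, Fx]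
  rw [add_neg_eq_zero]

theorem ev_ra (hn : n ≤ 10) {a : ℕ} {v : V} : ev n v (ra a) = 0 ↔ An n a v := by
  simp only [ra, ev_cons, ev_nil, toPerm_idc hn, one_smul, add_zero, An]
  rw [add_eq_zero_iff_eq_neg]

/-- The value of `l` is fixed by `a` if a certificate says so. -/
theorem fx_of_check (hn : n ≤ 10) (hp : ∀ v : V, p • v = 0) (hp0 : 0 < p) {v : V} {kf : ℕ → ℕ → ℕ}
    (hk : KeyOK n v kf) {rels : List FS} (hz : ∀ r ∈ rels, ev n v r = 0) {a : ℕ} (ha : okc n a = true) {l : FS}
    (hl : okFS n l = true) {ta : List (ℕ × ℕ × ℕ)} (ca : check n p kf rels ta (lm a l ++ sc (p - 1) l) = true) :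
    Fx n a (ev n v l) :=
  smul_ev_of hn hp v ha hl hp0 (sound hn hp hk hz ca)

/-- The value of `l` is negated by `a` if a certificate says so. -/
theorem an_of_check (hn : n ≤ 10) (hp : ∀ v : V, p • v = 0) {v : V} {kf : ℕ → ℕ → ℕ}
    (hk : KeyOK n v kf) {rels : List FS} (hz : ∀ r ∈ rels, ev n v r = 0) {a : ℕ} (ha : okc n a = true) {l : FS}
    (hl : okFS n l = true) {ta : List (ℕ × ℕ × ℕ)} (ca : check n p kf rels ta (lm a l ++ l) = true) :
    An n a (ev n v l) := by
  have h := sound hn hp hk hz ca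
  rw [ev_append, ev_lm hn v ha l hl] at h
  exact eq_neg_of_add_eq_zero_left h

theorem NF.zero (hNF : NF n V) (hn : n ≤ 10) {a b i : ℕ} {w₁ w₂ w₃ w₄ : List Bool}
    (h : nsB n a b i w₁ w₂ w₃ w₄ = true) {v : V} (ha : Fx n a v) (hb : Fx n b v) : v = 0 :=
  hNF _ _ (not_solvable hn h) v ha hb

/-- The value of `l` vanishes if certificates say that it is fixed by a nonsolvable group. -/
theorem NF.kill (hNF : NF n V) (hn : n ≤ 10) (hp : ∀ v : V, p • v = 0) (hp0 : 0 < p) {v : V} {kf : ℕ → ℕ → ℕ}
    (hk : KeyOK n v kf) {rels : List FS} (hz : ∀ r ∈ rels, ev n v r = 0) {a b i : ℕ} {w₁ w₂ w₃ w₄ : List Bool}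
    (h : nsB n a b i w₁ w₂ w₃ w₄ = true) {l : FS} (hl : okFS n l = true) {ta tb : List (ℕ × ℕ × ℕ)}
    (ca : check n p kf rels ta (lm a l ++ sc (p - 1) l) = true)
    (cb : check n p kf rels tb (lm b l ++ sc (p - 1) l) = true) : ev n v l = 0 := by
  have h' := h
  simp only [nsB, Bool.and_eq_true] at h'
  exact hNF.zero hn h (fx_of_check hn hp hp0 hk hz h'.1.1 hl ca) (fx_of_check hn hp hp0 hk hz h'.1.2 hl cb)

end

end Cfsg.Agent.H196.GA
end
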